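import Cfsg.Agent.H622.Levi.Desc

/-!
# The block subgroups `SL_3 × SL_3` of `SL_6` in a root group datum with the chain `0, 2, 3, 4, 5` (S4816, helper239)

* `bl1`, `bl2` : the diagonal blocks; `bl_comm`, `bl_center`, `bl1_inj`, `bl2_inj`;
* `co1`, `co2` : coordinates for the chains `0, 2` and `4, 5`.
-/

set_option autoImplicit false
set_option linter.unusedSectionVars false

namespace Cfsg.Agent.H239.RIM

open CoxeterSystem Cfsg.Agent.ChevalleyStructure.CoxeterGeom Cfsg.Agent.Tits.Roots Cfsg.Agent.Tits.Core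
  Cfsg.Agent.Nodes.Reps Cfsg.Agent.Nodes.BNOf Cfsg.Agent.Nodes.StabComb Cfsg.Agent.H622.Levi
  Cfsg.Agent.Nodes.SubComb Cfsg.Agent.Nodes.RootsA
open Cfsg.Agent.LieRecognition.BNCox (cA)
open Matrix

section blocks

variable {F : Type*} [Field F]

/-- the matrix with two diagonal blocks -/
def bm (g h : Matrix (Fin 3) (Fin 3) F) : Matrix (Fin 6) (Fin 6) F :=
  (fromBlocks g 0 0 h).submatrix (finSumFinEquiv (m := 3) (n := 3)).symm (finSumFinEquiv (m := 3) (n := 3)).symm

theorem bm_mul (g h g' h' : Matrix (Fin 3) (Fin 3) F) : bm g h * bm g' h' = bm (g * g') (h * h') := by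
  unfold bm
  rw [submatrix_mul_equiv, fromBlocks_multiply]
  simp

theorem bm_one : bm (1 : Matrix (Fin 3) (Fin 3) F) 1 = 1 := by
  unfold bm
  rw [fromBlocks_one, submatrix_one_equiv]

theorem det_bm (g h : Matrix (Fin 3) (Fin 3) F) : (bm g h).det = g.det * h.det := by
  unfold bm
  rw [det_submatrix_equiv_self, det_fromBlocks_zero₂₁]

theorem bm_cc (g h : Matrix (Fin 3) (Fin 3) F) (i j : Fin 3) :
    bm g h (Fin.castAdd 3 i) (Fin.castAdd 3 j) = g i j := by
  unfold bm
  rw [submatrix_apply, finSumFinEquiv_symm_apply_castAdd, finSumFinEquiv_symm_apply_castAdd, fromBlocks_apply₁₁]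

theorem bm_nn (g h : Matrix (Fin 3) (Fin 3) F) (i j : Fin 3) :
    bm g h (Fin.natAdd 3 i) (Fin.natAdd 3 j) = h i j := by
  unfold bm
  rw [submatrix_apply, finSumFinEquiv_symm_apply_natAdd, finSumFinEquiv_symm_apply_natAdd, fromBlocks_apply₂₂]

theorem bm_cn (g h : Matrix (Fin 3) (Fin 3) F) (i j : Fin 3) :
    bm g h (Fin.castAdd 3 i) (Fin.natAdd 3 j) = 0 := by
  unfold bm
  rw [submatrix_apply, finSumFinEquiv_symm_apply_castAdd, finSumFinEquiv_symm_apply_natAdd, fromBlocks_apply₁₂]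
  rfl

theorem bm_nc (g h : Matrix (Fin 3) (Fin 3) F) (i j : Fin 3) :
    bm g h (Fin.natAdd 3 i) (Fin.castAdd 3 j) = 0 := by
  unfold bm
  rw [submatrix_apply, finSumFinEquiv_symm_apply_castAdd, finSumFinEquiv_symm_apply_natAdd, fromBlocks_apply₂₁]
  rfl

/-- a matrix of size six by its blocks -/
theorem ext_bm {A B : Matrix (Fin 6) (Fin 6) F}
    (h1 : ∀ i j : Fin 3, A (Fin.castAdd 3 i) (Fin.castAdd 3 j) = B (Fin.castAdd 3 i) (Fin.castAdd 3 j))
    (h2 : ∀ i j : Fin 3, A (Fin.castAdd 3 i) (Fin.natAdd 3 j) = B (Fin.castAdd 3 i) (Fin.natAdd 3 j))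
    (h3 : ∀ i j : Fin 3, A (Fin.natAdd 3 i) (Fin.castAdd 3 j) = B (Fin.natAdd 3 i) (Fin.castAdd 3 j))
    (h4 : ∀ i j : Fin 3, A (Fin.natAdd 3 i) (Fin.natAdd 3 j) = B (Fin.natAdd 3 i) (Fin.natAdd 3 j)) : A = B := by
  ext i j
  exact Fin.addCases (motive := fun i : Fin (3 + 3) => ∀ j, A i j = B i j)
    (fun i j => Fin.addCases (motive := fun j : Fin (3 + 3) => A (Fin.castAdd 3 i) j = B (Fin.castAdd 3 i) j)
      (fun j => h1 i j) (fun j => h2 i j) j)
    (fun i j => Fin.addCases (motive := fun j : Fin (3 + 3) => A (Fin.natAdd 3 i) j = B (Fin.natAdd 3 i) j)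
      (fun j => h3 i j) (fun j => h4 i j) j) i j

/-- the first block -/
def bl1 : SpecialLinearGroup (Fin 3) F →* SpecialLinearGroup (Fin 6) F where
  toFun g := ⟨bm g.1 1, by rw [det_bm, g.2, det_one, mul_one]⟩
  map_one' := Subtype.ext bm_one
  map_mul' g h := Subtype.ext (by
    change bm (g.1 * h.1) 1 = bm g.1 1 * bm h.1 1
    rw [bm_mul, mul_one])

/-- the second block -/
def bl2 : SpecialLinearGroup (Fin 3) F →* SpecialLinearGroup (Fin 6) F where
  toFun g := ⟨bm 1 g.1, by rw [det_bm, g.2, det_one, mul_one]⟩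
  map_one' := Subtype.ext bm_one
  map_mul' g h := Subtype.ext (by
    change bm 1 (g.1 * h.1) = bm 1 g.1 * bm 1 h.1
    rw [bm_mul, mul_one])

theorem bl_mul (g h : SpecialLinearGroup (Fin 3) F) : (bl1 g * bl2 h).1 = bm g.1 h.1 := by
  change bm g.1 1 * bm 1 h.1 = _
  rw [bm_mul, mul_one, one_mul]

theorem bl_comm (g h : SpecialLinearGroup (Fin 3) F) : bl1 g * bl2 h = bl2 h * bl1 g := by
  apply Subtype.ext
  rw [bl_mul]
  change _ = bm 1 h.1 * bm g.1 1
  rw [bm_mul, mul_one, one_mul]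

/-- the central elements among the products -/
theorem bl_center {g h : SpecialLinearGroup (Fin 3) F}
    (hc : bl1 g * bl2 h ∈ Subgroup.center (SpecialLinearGroup (Fin 6) F)) :
    ∃ a : F, g.1 = scalar (Fin 3) a ∧ h.1 = scalar (Fin 3) a := by
  rw [Matrix.SpecialLinearGroup.mem_center_iff] at hc
  obtain ⟨a, -, ha⟩ := hc
  rw [bl_mul] at ha
  refine ⟨a, ?_, ?_⟩
  · ext i j
    rw [← bm_cc g.1 h.1 i j, ← ha, scalar_apply, scalar_apply, diagonal_apply, diagonal_apply]
    by_cases hij : i = j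
    · rw [if_pos hij, if_pos (by rw [hij])]
    · rw [if_neg hij, if_neg fun e => hij (Fin.castAdd_injective 3 3 e)]
  · ext i j
    rw [← bm_nn g.1 h.1 i j, ← ha, scalar_apply, scalar_apply, diagonal_apply, diagonal_apply]
    by_cases hij : i = j
    · rw [if_pos hij, if_pos (by rw [hij])]
    · rw [if_neg hij, if_neg fun e => hij (Fin.natAdd_injective 3 3 e)]

theorem bl1_center {g : SpecialLinearGroup (Fin 3) F}
    (hc : bl1 g ∈ Subgroup.center (SpecialLinearGroup (Fin 6) F)) : g = 1 := by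
  obtain ⟨a, h1, h2⟩ := bl_center (g := g) (h := 1) (by rwa [map_one, mul_one])
  apply Subtype.ext
  rw [h1, ← h2]

theorem bl2_center {g : SpecialLinearGroup (Fin 3) F}
    (hc : bl2 g ∈ Subgroup.center (SpecialLinearGroup (Fin 6) F)) : g = 1 := by
  obtain ⟨a, h1, h2⟩ := bl_center (g := 1) (h := g) (by rwa [map_one, one_mul])
  apply Subtype.ext
  rw [h2, ← h1]

theorem bl1_transvection {a b : Fin 3} (hab : a ≠ b) (hab' : (Fin.castAdd 3 a : Fin 6) ≠ Fin.castAdd 3 b) (t : F) :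
    bl1 (SpecialLinearGroup.transvection hab t) = SpecialLinearGroup.transvection hab' t := by
  apply Subtype.ext
  change bm (1 + Matrix.single a b t) 1 = 1 + Matrix.single (Fin.castAdd 3 a : Fin 6) (Fin.castAdd 3 b) t
  have hcn : ∀ i j : Fin 3, (Fin.castAdd 3 i : Fin 6) ≠ Fin.natAdd 3 j := by decide
  refine ext_bm (fun i j => ?_) (fun i j => ?_) (fun i j => ?_) (fun i j => ?_)
  · rw [bm_cc]
    simp only [Matrix.add_apply, Matrix.one_apply, Matrix.single_apply, Fin.castAdd_inj]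
  · rw [bm_cn]
    simp only [Matrix.add_apply, Matrix.one_apply, Matrix.single_apply, hcn, if_false, and_false, add_zero]
  · rw [bm_nc]
    simp only [Matrix.add_apply, Matrix.one_apply, Matrix.single_apply, (hcn _ _).symm, hcn, if_false, false_and,
      add_zero]
  · rw [bm_nn]
    simp only [Matrix.add_apply, Matrix.one_apply, Matrix.single_apply, Fin.natAdd_inj, hcn, false_and, if_false,
      add_zero]

theorem bl2_transvection {a b : Fin 3} (hab : a ≠ b) (hab' : (Fin.natAdd 3 a : Fin 6) ≠ Fin.natAdd 3 b) (t : F) :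
    bl2 (SpecialLinearGroup.transvection hab t) = SpecialLinearGroup.transvection hab' t := by
  apply Subtype.ext
  change bm 1 (1 + Matrix.single a b t) = 1 + Matrix.single (Fin.natAdd 3 a : Fin 6) (Fin.natAdd 3 b) t
  have hcn : ∀ i j : Fin 3, (Fin.castAdd 3 i : Fin 6) ≠ Fin.natAdd 3 j := by decide
  refine ext_bm (fun i j => ?_) (fun i j => ?_) (fun i j => ?_) (fun i j => ?_)
  · rw [bm_cc]
    simp only [Matrix.add_apply, Matrix.one_apply, Matrix.single_apply, Fin.castAdd_inj, (hcn _ _).symm, false_and,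
      if_false, add_zero]
  · rw [bm_cn]
    simp only [Matrix.add_apply, Matrix.one_apply, Matrix.single_apply, hcn, (hcn _ _).symm, if_false, false_and,
      add_zero]
  · rw [bm_nc]
    simp only [Matrix.add_apply, Matrix.one_apply, Matrix.single_apply, (hcn _ _).symm, if_false, and_false,
      add_zero]
  · rw [bm_nn]
    simp only [Matrix.add_apply, Matrix.one_apply, Matrix.single_apply, Fin.natAdd_inj]

end blocks

/-- the chain `0, 2, 3, 4, 5` -/
def k5 : Fin 5 ↪ Fin 6 := ⟨![0, 2, 3, 4, 5], by decide⟩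
/-- the chain `0, 2` -/
def k1 : Fin 2 ↪ Fin 6 := ⟨![0, 2], by decide⟩
/-- the chain `4, 5` -/
def k2 : Fin 2 ↪ Fin 6 := ⟨![4, 5], by decide⟩

theorem cr_k1 : ∀ a b : Fin 3, cr k1 a b = cr k5 (Fin.castAdd 3 a : Fin 6) (Fin.castAdd 3 b : Fin 6) := by
  decide +kernel

theorem cr_k2 : ∀ a b : Fin 3, cr k2 a b = cr k5 (Fin.natAdd 3 a : Fin 6) (Fin.natAdd 3 b : Fin 6) := by
  decide +kernel

variable {Y : Type*} [Group Y] {X : (Fin 6 → ℤ) → Subgroup Y} {F : Type} [Field F]
  {φ : SpecialLinearGroup (Fin (5 + 1)) F →* Y}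

theorem co1 (C : Co X k5 F φ) : Co X k1 F (φ.comp (bl1 (F := F))) := by
  refine ⟨fun a b hab => ?_, ?_⟩
  · have hab' : (Fin.castAdd 3 a : Fin 6) ≠ Fin.castAdd 3 b := fun e => hab (Fin.castAdd_injective 3 3 e)
    rw [cr_k1, C.root _ _ hab']
    congr 1
    funext t
    rw [MonoidHom.comp_apply, bl1_transvection hab hab']
  · intro g hg
    rw [bl1_center (C.ker hg)]
    exact one_mem _

theorem co2 (C : Co X k5 F φ) : Co X k2 F (φ.comp (bl2 (F := F))) := by
  refine ⟨fun a b hab => ?_, ?_⟩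
  · have hab' : (Fin.natAdd 3 a : Fin 6) ≠ Fin.natAdd 3 b := fun e => hab (Fin.natAdd_injective 3 3 e)
    rw [cr_k2, C.root _ _ hab']
    congr 1
    funext t
    rw [MonoidHom.comp_apply, bl2_transvection hab hab']
  · intro g hg
    rw [bl2_center (C.ker hg)]
    exact one_mem _

theorem range_k1 : Set.range k1 = ({2, 0} : Set (Fin 6)) := by
  ext x
  simp only [Set.mem_range, Set.mem_insert_iff, Set.mem_singleton_iff]
  revert x; decide

theorem range_k2 : Set.range k2 = ({4, 5} : Set (Fin 6)) := by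
  ext x
  simp only [Set.mem_range, Set.mem_insert_iff, Set.mem_singleton_iff]
  revert x; decide

end Cfsg.Agent.H239.RIM
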